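import Cfsg.Agent.H695.OneZero.Det
import Cfsg.Agent.H200.VZ.One
import Cfsg.Agent.H602.Blich.Lemma
import Cfsg.Agent.Characters.Central
import Cfsg.Agent.H730.OZ.Defs

/-!
# S4842, (F7): the determinant formula, end

`ρ` irreducible with `V^B ≠ 0`, `∑ χ = e p^m χ(1)` over the `p`-elements:
* `e_eq_one` : `e = 1`;
* `VU_eq` (H200/VZ/One.lean) : `V^U = V^B`;
* `det_formula` : `(p^m)^d = ∏ q_i ^ (2 k_i)` over a reduced word of the longest element, `d = dim V^B`,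
  `k_i = dim V^(P_i)`, `q_i = |X_i|`.
-/

set_option autoImplicit false
set_option linter.unusedSectionVars false

open Cfsg

namespace Cfsg.Agent.H695.OneZero.Det

open CoxeterSystem Cfsg.Agent.ChevalleyStructure.CoxeterGeom Cfsg.Agent.Tits.Roots Cfsg.Agent.Tits.Core
  Cfsg.Agent.Tits.Exchange Cfsg.Agent.Nodes.Reps Cfsg.Agent.Nodes.BNOf Cfsg.Agent.Nodes.StabComb
  Cfsg.Agent.Nodes.Bruhat Cfsg.Agent.Nodes.OppDec Cfsg.Agent.Nodes.LeviDec Cfsg.Agent.Nodes.NormalForm Module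
open Cfsg.Agent.H985.VZ (av fx mem_fx av_mem av_of_mem av_rho rho_av av_mul av_eq av_apply card_ne qq fx_mono)
open Cfsg.Agent.H631.Kaw (S S_conj pel mem_pel LF mem_LF)
open Cfsg.Agent.H602.Blich (InvForm)

universe u v

theorem order_conj {G : Type*} [Group G] (g x : G) : orderOf (g * x * g⁻¹) = orderOf x := by
  have h1 := orderOf_injective (MulAut.conj g).toMonoidHom (MulAut.conj g).injective x
  rwa [MulEquiv.coe_toMonoidHom, MulAut.conj_apply] at h1

/-! ### the invariant Hermitian form -/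

section Form

open scoped ComplexConjugate ComplexOrder

variable {G : Type u} {V : Type v} [Group G] [Finite G] [AddCommGroup V] [Module ℂ V]

theorem exists_form [FiniteDimensional ℂ V] (ρ : Representation ℂ G V) : ∃ B : V → V → ℂ, InvForm ρ B := by
  classical
  have := Fintype.ofFinite G
  let b := (Module.finBasis ℂ V).equivFun
  refine ⟨fun u v => ∑ g : G, star (b (ρ g u)) ⬝ᵥ b (ρ g v), ?_, ?_, ?_, ?_, ?_⟩
  · intro u v w
    simp only [map_add, dotProduct_add, Finset.sum_add_distrib]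
  · intro c u v
    simp only [map_smul, dotProduct_smul, Finset.mul_sum, smul_eq_mul]
  · intro u v
    simp only [map_sum]
    refine Finset.sum_congr rfl fun g _ => ?_
    have h2 : star (star (b (ρ g u)) ⬝ᵥ b (ρ g v)) = star (b (ρ g v)) ⬝ᵥ b (ρ g u) := by
      rw [← Matrix.star_dotProduct_star, star_star]
    exact h2.symm
  · intro u hu
    have h0 : ∀ g : G, 0 ≤ star (b (ρ g u)) ⬝ᵥ b (ρ g u) := fun g => dotProduct_star_self_nonneg _
    have h1 : 0 < star (b (ρ 1 u)) ⬝ᵥ b (ρ 1 u) := by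
      rw [Matrix.dotProduct_star_self_pos_iff, map_one, Module.End.one_apply]
      intro h2
      exact hu (b.map_eq_zero_iff.1 h2)
    have h2 : 0 < ∑ g : G, star (b (ρ g u)) ⬝ᵥ b (ρ g u) :=
      Finset.sum_pos' (fun g _ => h0 g) ⟨1, Finset.mem_univ _, h1⟩
    exact (Complex.lt_def.mp h2).1
  · intro g u v
    simp_rw [← Module.End.mul_apply, ← map_mul]
    exact Fintype.sum_equiv (Equiv.mulRight g) _ _ fun h => rfl

variable {ρ : Representation ℂ G V} {B : V → V → ℂ}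

theorem form_sum (hB : InvForm ρ B) {ι : Type*} (s : Finset ι) (f : ι → V) (u : V) :
    B u (∑ i ∈ s, f i) = ∑ i ∈ s, B u (f i) := by
  classical
  induction s using Finset.induction_on with
  | empty => rw [Finset.sum_empty, Finset.sum_empty, hB.zero_right]
  | insert i s hi ih => rw [Finset.sum_insert hi, Finset.sum_insert hi, hB.add_right, ih]

theorem form_sum_left (hB : InvForm ρ B) {ι : Type*} (s : Finset ι) (f : ι → V) (u : V) :
    B (∑ i ∈ s, f i) u = ∑ i ∈ s, B (f i) u := by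
  classical
  induction s using Finset.induction_on with
  | empty => rw [Finset.sum_empty, Finset.sum_empty, hB.zero_left]
  | insert i s hi ih => rw [Finset.sum_insert hi, Finset.sum_insert hi, hB.add_left, ih]

theorem form_nonneg (hB : InvForm ρ B) (u : V) : 0 ≤ (B u u).re := by
  by_cases h : u = 0
  · rw [h, hB.zero_right]; simp
  · exact (hB.pos u h).le

/-- averages are self-adjoint -/
theorem form_av (hB : InvForm ρ B) (H : Subgroup G) (u v : V) : B (av ρ H u) v = B u (av ρ H v) := by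
  classical
  have := Fintype.ofFinite H
  rw [av_apply, av_apply, hB.smul_left, hB.smul_right, form_sum hB, form_sum_left hB]
  congr 1
  · simp
  · refine Fintype.sum_equiv (Equiv.inv H) _ _ fun x => ?_
    have h1 := hB.inv (x : G)⁻¹ (ρ x u) v
    rw [← rmul, inv_mul_cancel, map_one, Module.End.one_apply] at h1
    rw [Equiv.inv_apply, Subgroup.coe_inv, h1]

end Form

section Main

variable {I W : Type*} {Y : Type u} [Fintype I] [DecidableEq I] [Group W] [Group Y] {M : CoxeterMatrix I}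
  {cs : CoxeterSystem M W} {A : I → I → ℤ} {h : IsCartan M A} {p : ℕ} {T : Subgroup Y} {n : I → Y}
  {X : (I → ℤ) → Subgroup Y} (R : RGD cs h p T n X) [Finite Y] [Finite W]
  {V : Type v} [AddCommGroup V] [Module ℂ V] {ρ : Representation ℂ Y V}

omit [Finite W] [Finite Y] in
theorem VJ_empty : VJ cs h X (∅ : Set I) = RGD.Sup X (RGD.Pos cs h) := by
  unfold VJ
  congr 1
  ext x
  constructor
  · exact fun hx => ⟨hx.1, hx.2.1⟩
  · intro hx
    refine ⟨hx.1, hx.2, ?_⟩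
    by_contra hc
    push Not at hc
    refine hx.1.ne_zero (le_antisymm (fun k => hc k (Set.notMem_empty k)) hx.2)

omit [Finite W] [Finite Y] in
theorem VNJ_empty : VNJ cs h X (∅ : Set I) = UN cs h X := by
  unfold VNJ UN
  congr 1
  ext x
  constructor
  · exact fun hx => ⟨NotNJ.isRoot hx, neg_nonneg.1 hx.2.1⟩
  · intro hx
    have h0 : 0 ≤ -x := neg_nonneg.2 hx.2
    refine ⟨hx.1.neg, h0, ?_⟩
    by_contra hc
    push Not at hc
    exact hx.1.neg.ne_zero (le_antisymm (fun k => hc k (Set.notMem_empty k)) h0)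

include R

/-- `e_U x = e_B x` if `x` is fixed by `T` -/
theorem av_U_eq {x : V} (hx : x ∈ fx ρ T) :
    av ρ (RGD.Sup X (RGD.Pos cs h)) x = av ρ (RGD.B cs h T X) x := by
  rw [av_mul (ρ := ρ) (H := RGD.B cs h T X) (K := RGD.Sup X (RGD.Pos cs h)) (N := T) RGD.U_le_B RGD.T_le_B
    (fun b hb => ?_), av_of_mem hx]
  obtain ⟨t, ht, u, hu, rfl⟩ := R.mem_B.1 hb
  refine ⟨t * u * t⁻¹, ?_, t, ht, by group⟩
  exact (Subgroup.mem_normalizer_iff.1 (R.T_le_normalizer_U ht) u).1 hu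

theorem rho_fx_T {w : W} {k : Y} (hk : Rp cs R.nsys w k) {x : V} (hx : x ∈ fx ρ T) : ρ k x ∈ fx ρ T := by
  intro t ht
  have h1 : k⁻¹ * t * k ∈ T := by
    have := (Subgroup.mem_normalizer_iff.1 (inv_mem hk.mem_normalizer) t).1 ht
    rwa [inv_inv] at this
  have h2 : t * k = k * (k⁻¹ * t * k) := by group
  rw [← rmul, h2, rmul, hx _ h1]

/-- **the sum of the `p`-elements on `V^B`** -/
theorem sum_pel_apply [Fact p.Prime] (hG : GG cs h T X = ⊤) {k : Y} (hk : Rp cs R.nsys (w0 cs) k) {f : V}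
    (hf : f ∈ fx ρ (RGD.B cs h T X)) :
    (∑ g ∈ pel Y p, ρ g) f = ((Nat.card ↥(RGD.Sup X (RGD.Pos cs h)) : ℂ) ^ 2) •
      av ρ (RGD.B cs h T X) (ρ k (av ρ (RGD.B cs h T X) (ρ k⁻¹ f))) := by
  set U := RGD.Sup X (RGD.Pos cs h) with hU
  have hfU : f ∈ fx ρ U := fx_mono RGD.U_le_B hf
  have hfT : f ∈ fx ρ T := fx_mono RGD.T_le_B hf
  have h1 := Cfsg.Agent.H631.Kaw.sum_pel_mul_U (E := Module.End ℂ V) (φ := ρ) R hG
    (Cfsg.Agent.H279.OZ.cusp_of_rgd R hG ρ) (av ρ U) (fun g hg => by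
      rw [mem_LF]
      ext x
      rw [VJ_empty] at hg
      exact rho_av ρ hg x)
  rw [VJ_empty, VNJ_empty, ← cj_U R hk, ← S_conj, ← hU, S_eq] at h1
  have h2 := congrArg (fun F : Module.End ℂ V => F f) h1
  simp only [Module.End.mul_apply, av_of_mem hfU, LinearMap.smul_apply, map_smul] at h2
  rw [h2, smul_smul, ← pow_two]
  have hk' : Rp cs R.nsys (w0 cs)⁻¹ k⁻¹ := hk.inv
  have h3 := rho_fx_T R hk' hfT
  have h4 : av ρ U (ρ k⁻¹ f) = av ρ (RGD.B cs h T X) (ρ k⁻¹ f) := av_U_eq R h3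
  rw [h4]
  congr 1
  exact av_U_eq R (rho_fx_T R hk (fx_mono RGD.T_le_B (av_mem ρ _ _)))

omit R in
/-- the scalar -/
theorem sum_pel_scalar [FiniteDimensional ℂ V] (hρ : ρ.IsIrreducible) {c : ℂ}
    (hS : ∑ g ∈ pel Y p, ρ.character g = c * ρ.character 1) :
    (∑ g ∈ pel Y p, ρ g) = c • (1 : Module.End ℂ V) := by
  have h1 : ∀ g, (∑ x ∈ pel Y p, ρ x) * ρ g = ρ g * (∑ x ∈ pel Y p, ρ x) := by
    intro g
    rw [Finset.sum_mul, Finset.mul_sum]
    refine Finset.sum_nbij' (fun x => g⁻¹ * x * g) (fun x => g * x * g⁻¹) ?_ ?_ ?_ ?_ ?_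
    · intro x hx
      obtain ⟨k, hk⟩ := mem_pel.1 hx
      refine mem_pel.2 ⟨k, ?_⟩
      rw [← hk]
      have := order_conj g⁻¹ x
      rwa [inv_inv] at this
    · intro x hx
      obtain ⟨k, hk⟩ := mem_pel.1 hx
      refine mem_pel.2 ⟨k, ?_⟩
      rw [← hk]
      exact order_conj g x
    · intro x _; group
    · intro x _; group
    · intro x _
      rw [← map_mul, ← map_mul]
      congr 1
      group
  have h2 := Cfsg.Agent.Characters.Central.eq_trace_smul_of_comm ρ hρ _ h1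
  rw [h2]
  congr 1
  have h3 : ρ.character 1 ≠ 0 := Cfsg.Agent.Characters.Central.char_one_ne_zero ρ hρ
  rw [div_eq_iff h3, ← hS, map_sum]
  rfl

/-- positivity -/
theorem scalar_nonneg [Fact p.Prime] [FiniteDimensional ℂ V] (hG : GG cs h T X = ⊤) (hρ : ρ.IsIrreducible)
    (h0 : fx ρ (RGD.B cs h T X) ≠ ⊥) {c : ℝ}
    (hS : ∑ g ∈ pel Y p, ρ.character g = (c : ℂ) * ρ.character 1) : 0 ≤ c := by
  obtain ⟨F, hF⟩ := exists_form ρ
  obtain ⟨f, hf, hf0⟩ := Submodule.exists_mem_ne_zero_of_ne_bot h0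
  obtain ⟨k, hk⟩ := exists_rp cs R.nsys (w0 cs)
  have h1 := sum_pel_apply R hG hk hf
  rw [sum_pel_scalar hρ hS, LinearMap.smul_apply, Module.End.one_apply] at h1
  have h2 : F f ((c : ℂ) • f) = ((Nat.card ↥(RGD.Sup X (RGD.Pos cs h)) : ℂ) ^ 2) *
      F (av ρ (RGD.B cs h T X) (ρ k⁻¹ f)) (av ρ (RGD.B cs h T X) (ρ k⁻¹ f)) := by
    rw [h1, hF.smul_right, ← form_av hF, av_of_mem hf]
    congr 1
    have h3 := hF.inv k (ρ k⁻¹ f) (av ρ (RGD.B cs h T X) (ρ k⁻¹ f))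
    rw [← rmul, mul_inv_cancel, map_one, Module.End.one_apply] at h3
    rw [h3]
    conv_rhs => rw [form_av hF, Cfsg.Agent.H985.VZ.av_idem]
  rw [hF.smul_right] at h2
  have h3 := congrArg Complex.re h2
  rw [Complex.re_ofReal_mul] at h3
  have h4 : (((Nat.card ↥(RGD.Sup X (RGD.Pos cs h)) : ℂ) ^ 2) *
      F (av ρ (RGD.B cs h T X) (ρ k⁻¹ f)) (av ρ (RGD.B cs h T X) (ρ k⁻¹ f))).re =
      ((Nat.card ↥(RGD.Sup X (RGD.Pos cs h)) : ℝ) ^ 2) *
      (F (av ρ (RGD.B cs h T X) (ρ k⁻¹ f)) (av ρ (RGD.B cs h T X) (ρ k⁻¹ f))).re := by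
    rw [← Complex.re_ofReal_mul]
    push_cast
    rfl
  rw [h4] at h3
  have h5 := hF.pos f hf0
  have h6 := form_nonneg hF (av ρ (RGD.B cs h T X) (ρ k⁻¹ f))
  by_contra hc
  push Not at hc
  have h7 : c * (F f f).re < 0 := mul_neg_of_neg_of_pos hc h5
  have h8 : 0 ≤ ((Nat.card ↥(RGD.Sup X (RGD.Pos cs h)) : ℝ) ^ 2) *
      (F (av ρ (RGD.B cs h T X) (ρ k⁻¹ f)) (av ρ (RGD.B cs h T X) (ρ k⁻¹ f))).re := mul_nonneg (by positivity) h6
  linarith

/-! ### determinants -/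

/-- the determinant of `T_i = q_i e_B n_i` -/
theorem det_XX [FiniteDimensional ℂ V] (i : I) :
    ((qq X i : ℂ) ^ finrank ℂ (fx ρ (RGD.B cs h T X)) * LinearMap.det (XX cs h T n X ρ i)) ^ 2 =
      (qq X i : ℂ) ^ (2 * finrank ℂ (fx ρ (PJ cs h T X {i}))) := by
  set B := RGD.B cs h T X with hB
  set P := PJ cs h T X {i} with hP
  have hBP : B ≤ P := B_le_PJ
  let pr : Module.End ℂ (fx ρ B) := (av ρ P).restrict (fun v _ => fx_mono hBP (av_mem ρ P v))
  have hpr : LinearMap.IsProj ((fx ρ P).comap (fx ρ B).subtype) pr :=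
    ⟨fun v => av_mem ρ P (v : V), fun v hv => Subtype.ext (av_of_mem hv)⟩
  have h1 : (qq X i : ℂ) • XX cs h T n X ρ i = (-1 : ℂ) • (1 + (-(1 + (qq X i : ℂ))) • pr) := by
    ext v
    have h2 : (qq X i : ℂ) • av ρ B (ρ (n i) (v : V)) = (1 + qq X i : ℂ) • av ρ P v - v :=
      Cfsg.Agent.H200.VZ.TE_eq (ρ := ρ) R i v
    change (qq X i : ℂ) • av ρ B (ρ (n i) (v : V)) = (-1 : ℂ) • ((v : V) + (-(1 + (qq X i : ℂ))) • av ρ P v)
    rw [h2]
    module
  rw [← LinearMap.det_smul, h1, LinearMap.det_smul, det_one_add_proj hpr,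
    (Submodule.comapSubtypeEquivOfLe (fx_mono (ρ := ρ) hBP)).finrank_eq]
  have h3 : (1 + -(1 + (qq X i : ℂ))) = -(qq X i : ℂ) := by ring
  have h4 : ∀ (a : ℂ) (k : ℕ), ((-a) ^ k) ^ 2 = a ^ (2 * k) := fun a k => by
    rw [← pow_mul, mul_comm k 2, pow_mul, neg_sq, ← pow_mul]
  rw [h3, mul_pow, h4, h4, one_pow, one_mul]

omit R in
theorem list_prod_aux {ι : Type*} (d : ℕ) (a b c : ι → ℂ) (hc : ∀ i, (a i ^ d * b i) ^ 2 = c i) (ω : List ι) :
    ((ω.map a).prod ^ 2) ^ d * ((ω.map b).prod * (ω.map b).prod) = (ω.map c).prod := by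
  induction ω with
  | nil => simp
  | cons i ω ih =>
    simp only [List.map_cons, List.prod_cons]
    rw [← ih, ← hc i]
    ring

theorem NW_w0 : NW cs h (w0 cs) = RGD.Pos cs h := by
  ext x
  exact ⟨fun hx => ⟨hx.1, hx.2.1⟩, fun hx => ⟨hx.1, hx.2, rep_w0_nonpos hx.1 hx.2⟩⟩

/-- **the determinant formula** -/
theorem det_formula [Fact p.Prime] [FiniteDimensional ℂ V] (hG : GG cs h T X = ⊤) (hρ : ρ.IsIrreducible)
    (h0 : fx ρ (RGD.B cs h T X) ≠ ⊥) {m : ℕ} {e : ℤ} (he : e = 1 ∨ e = -1)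
    (hS : ∑ g ∈ pel Y p, ρ.character g = (e : ℂ) * (p : ℂ) ^ m * ρ.character 1) :
    e = 1 ∧ ∀ ω : List I, cs.IsReduced ω → cs.wordProd ω = w0 cs →
      (p ^ m) ^ finrank ℂ (fx ρ (RGD.B cs h T X)) =
        (ω.map fun i => qq X i ^ (2 * finrank ℂ (fx ρ (PJ cs h T X {i})))).prod := by
  have hp0 : (0 : ℝ) < (p : ℝ) ^ m := pow_pos (Nat.cast_pos.2 (Fact.out : p.Prime).pos) m
  have he1 : e = 1 := by
    refine he.resolve_right fun h1 => ?_
    have h2 := scalar_nonneg R hG hρ h0 (c := -(p : ℝ) ^ m) (by rw [hS, h1]; push_cast; ring)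
    linarith
  refine ⟨he1, fun ω hω hw => ?_⟩
  subst he1
  rw [Int.cast_one, one_mul] at hS
  obtain ⟨k, hk⟩ := exists_rp cs R.nsys (w0 cs)
  have hk' : Rp cs R.nsys (w0 cs)⁻¹ k⁻¹ := hk.inv
  have hωr : cs.IsReduced ω.reverse := (cs.isReduced_reverse_iff ω).2 hω
  have hwr : cs.wordProd ω.reverse = (w0 cs)⁻¹ := by rw [wordProd_reverse, hw]
  set B := RGD.B cs h T X with hB
  have hE : ((p : ℂ) ^ m) • (1 : Module.End ℂ (fx ρ B)) =
      ((Nat.card ↥(RGD.Sup X (RGD.Pos cs h)) : ℂ) ^ 2) •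
        ((ω.map (XX cs h T n X ρ)).prod * (ω.reverse.map (XX cs h T n X ρ)).prod) := by
    ext f
    have h1 := sum_pel_apply R hG hk f.2
    rw [sum_pel_scalar hρ hS] at h1
    have h2 := av_word R hωr (k := k⁻¹) (by rw [hwr]; exact hk') f
    rw [h2] at h1
    have h3 := av_word R hω (k := k) (by rw [hw]; exact hk) ((ω.reverse.map (XX cs h T n X ρ)).prod f)
    rw [h3] at h1
    exact h1
  have h1 := congrArg LinearMap.det hE
  have hrev : ((ω.reverse.map (XX cs h T n X ρ)).map LinearMap.det).prod =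
      ((ω.map (XX cs h T n X ρ)).map LinearMap.det).prod := by
    rw [List.map_reverse, List.map_reverse, List.prod_reverse]
  rw [LinearMap.det_smul, LinearMap.det_smul, map_one, mul_one, map_mul, map_list_prod, map_list_prod, hrev,
    List.map_map] at h1
  have h2 : (Nat.card ↥(RGD.Sup X (RGD.Pos cs h)) : ℂ) = (ω.map fun i => (qq X i : ℂ)).prod := by
    have h3 := Cfsg.Agent.H81.PJSum.card_word R hω
    rw [hw, NW_w0 R] at h3
    rw [h3, Nat.cast_list_prod, List.map_map]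
    rfl
  rw [h2, list_prod_aux (finrank ℂ (fx ρ B)) (fun i => (qq X i : ℂ)) (LinearMap.det ∘ XX cs h T n X ρ)
    (fun i => (qq X i : ℂ) ^ (2 * finrank ℂ (fx ρ (PJ cs h T X {i})))) (fun i => det_XX R i)] at h1
  have h4 : (((p ^ m) ^ finrank ℂ (fx ρ B) : ℕ) : ℂ) =
      (((ω.map fun i => qq X i ^ (2 * finrank ℂ (fx ρ (PJ cs h T X {i})))).prod : ℕ) : ℂ) := by
    rw [Nat.cast_list_prod, List.map_map]
    push_cast
    rw [h1]
    congr 2
    funext i
    simp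
  exact_mod_cast h4

/-- the same with the sum over `pSet` -/
theorem det_formula_pSet (hp : p.Prime) [FiniteDimensional ℂ V] (hG : GG cs h T X = ⊤) (hρ : ρ.IsIrreducible)
    (h0 : fx ρ (RGD.B cs h T X) ≠ ⊥) {m : ℕ} {e : ℤ} (he : e = 1 ∨ e = -1)
    (hS : ∑ᶠ g ∈ Cfsg.Agent.H730.OZ.pSet p Y, ρ.character g = (e : ℂ) * (p : ℂ) ^ m * ρ.character 1) :
    e = 1 ∧ ∀ ω : List I, cs.IsReduced ω → cs.wordProd ω = w0 cs →
      (p ^ m) ^ finrank ℂ (fx ρ (RGD.B cs h T X)) =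
        (ω.map fun i => qq X i ^ (2 * finrank ℂ (fx ρ (PJ cs h T X {i})))).prod := by
  have : Fact p.Prime := ⟨hp⟩
  refine det_formula R hG hρ h0 he ?_
  rw [← hS, finsum_mem_eq_finite_toFinset_sum _ (Set.toFinite _)]
  rfl

/-- the exponents: `q_i = p ^ a_i` -/
theorem det_formula_exp (hp : p.Prime) [FiniteDimensional ℂ V] (hG : GG cs h T X = ⊤) (hρ : ρ.IsIrreducible)
    (h0 : fx ρ (RGD.B cs h T X) ≠ ⊥) {m : ℕ} {e : ℤ} (he : e = 1 ∨ e = -1)
    (hS : ∑ᶠ g ∈ Cfsg.Agent.H730.OZ.pSet p Y, ρ.character g = (e : ℂ) * (p : ℂ) ^ m * ρ.character 1)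
    {a : I → ℕ} (ha : ∀ i, qq X i = p ^ a i) :
    e = 1 ∧ ∀ ω : List I, cs.IsReduced ω → cs.wordProd ω = w0 cs →
      m * finrank ℂ (fx ρ (RGD.B cs h T X)) =
        (ω.map fun i => 2 * (a i * finrank ℂ (fx ρ (PJ cs h T X {i})))).sum := by
  obtain ⟨h1, h2⟩ := det_formula_pSet R hp hG hρ h0 he hS
  refine ⟨h1, fun ω hω hw => Nat.pow_right_injective hp.two_le ?_⟩
  change p ^ _ = p ^ _
  rw [pow_mul, h2 ω hω hw]
  clear hω hw
  induction ω with
  | nil => simp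
  | cons i ω ih =>
    rw [List.map_cons, List.prod_cons, List.map_cons, List.sum_cons, pow_add, ih, ha]
    congr 1
    rw [← pow_mul]
    congr 1
    ring

/-- the exponents, grouped: `m d = 2 ∑ N_i a_i k_i`, `N_i` the number of letters `i` of the word -/
theorem det_formula_count (hp : p.Prime) [FiniteDimensional ℂ V] (hG : GG cs h T X = ⊤) (hρ : ρ.IsIrreducible)
    (h0 : fx ρ (RGD.B cs h T X) ≠ ⊥) {m : ℕ} {e : ℤ} (he : e = 1 ∨ e = -1)
    (hS : ∑ᶠ g ∈ Cfsg.Agent.H730.OZ.pSet p Y, ρ.character g = (e : ℂ) * (p : ℂ) ^ m * ρ.character 1)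
    {a : I → ℕ} (ha : ∀ i, qq X i = p ^ a i) :
    e = 1 ∧ ∀ ω : List I, cs.IsReduced ω → cs.wordProd ω = w0 cs →
      m * finrank ℂ (fx ρ (RGD.B cs h T X)) =
        2 * ∑ i, ω.count i * (a i * finrank ℂ (fx ρ (PJ cs h T X {i}))) := by
  obtain ⟨h1, h2⟩ := det_formula_exp R hp hG hρ h0 he hS ha
  refine ⟨h1, fun ω hω hw => ?_⟩
  rw [h2 ω hω hw]
  clear hω hw
  induction ω with
  | nil => simp
  | cons i ω ih =>
    have h3 : ∀ j, (i :: ω).count j = ω.count j + if i = j then 1 else 0 := fun j => by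
      rw [List.count_cons]
      congr 1
      simp [beq_iff_eq]
    rw [List.map_cons, List.sum_cons, ih]
    simp only [h3, add_mul, ite_mul, one_mul, zero_mul, Finset.sum_add_distrib, Finset.sum_ite_eq,
      Finset.mem_univ, if_true]
    ring

end Main

end Cfsg.Agent.H695.OneZero.Det
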