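import Cfsg.Agent.H985.VZ.Frame
import Cfsg.Agent.H279.OZ.Kaw
import Cfsg.Agent.H81.PJSum
import Cfsg.Agent.Characters.Central
import Cfsg.Agent.H866.D4Wf.Coset

/-!
# S4842, (F7): the determinant formula

`ρ` irreducible with `V^B ≠ 0`, `∑ χ = e p^m χ(1)` over the `p`-elements: `e = 1` and
`(p^m)^d = ∏ q_i ^ (2 k_i)` over a reduced word of the longest element, `d = dim V^B`,
`k_i = dim V^(P_i)`.
-/

set_option autoImplicit false
set_option linter.unusedSectionVars false

open Cfsg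

namespace Cfsg.Agent.H695.OneZero.Det

open CoxeterSystem Cfsg.Agent.ChevalleyStructure.CoxeterGeom Cfsg.Agent.Tits.Roots Cfsg.Agent.Tits.Core
  Cfsg.Agent.Tits.Exchange Cfsg.Agent.Nodes.Reps Cfsg.Agent.Nodes.BNOf Cfsg.Agent.Nodes.StabComb
  Cfsg.Agent.Nodes.Bruhat Cfsg.Agent.Nodes.OppDec Cfsg.Agent.Nodes.LeviDec Cfsg.Agent.Nodes.NormalForm Module
open Cfsg.Agent.H985.VZ (av fx mem_fx av_mem av_of_mem av_rho rho_av av_mul av_eq av_apply card_ne qq fx_mono)
open Cfsg.Agent.H631.Kaw (S S_conj pel mem_pel LF mem_LF)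

universe u v

/-! ### linear algebra -/

theorem det_one_add_proj {E : Type*} [AddCommGroup E] [Module ℂ E] [FiniteDimensional ℂ E]
    {p : Submodule ℂ E} {f : Module.End ℂ E} (h : LinearMap.IsProj p f) (c : ℂ) :
    LinearMap.det (1 + c • f) = (1 + c) ^ finrank ℂ p := by
  have h1 := h.eq_conj_prodMap
  have h2 : (1 : Module.End ℂ E) + c • f = (p.prodEquivOfIsCompl (LinearMap.ker f) h.isCompl).conj
      (LinearMap.prodMap ((1 + c) • LinearMap.id) LinearMap.id) := by
    have h3 : LinearMap.prodMap ((1 + c) • (LinearMap.id : p →ₗ[ℂ] p))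
        (LinearMap.id : LinearMap.ker f →ₗ[ℂ] LinearMap.ker f) =
        LinearMap.id + c • LinearMap.prodMap LinearMap.id 0 := by
      ext x <;> simp [add_smul]
    rw [h3, map_add, map_smul, ← h1, LinearEquiv.conj_id]
    rfl
  rw [h2, LinearEquiv.conj_apply, LinearMap.comp_assoc, LinearMap.det_conj, LinearMap.det_prodMap,
    LinearMap.det_id, mul_one, LinearMap.det_smul, LinearMap.det_id, mul_one]

section S

variable {Y : Type u} [Group Y] [Finite Y] {V : Type v} [AddCommGroup V] [Module ℂ V]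
  (ρ : Representation ℂ Y V)

omit [Finite Y] in
theorem rmul (a b : Y) (v : V) : ρ (a * b) v = ρ a (ρ b v) := by rw [map_mul]; rfl

theorem S_eq (H : Subgroup Y) : S (A := Module.End ℂ V) ρ H = (Nat.card H : ℂ) • av ρ H := by
  classical
  have := Fintype.ofFinite H
  rw [av_eq, smul_smul, mul_inv_cancel₀ (card_ne H), one_smul]
  unfold S
  refine (Finset.sum_bij (fun (x : H) _ => (x : Y)) (fun x _ => by simp)
    (fun x _ y _ hxy => Subtype.ext hxy) (fun y hy => ?_) fun _ _ => rfl).symm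
  exact ⟨⟨y, (Set.Finite.mem_toFinset _).1 hy⟩, Finset.mem_univ _, rfl⟩

/-- averages of a constant -/
theorem av_const {H : Subgroup Y} {F : Module.End ℂ V} {v w : V} (hw : ∀ x ∈ H, F (ρ x v) = w) :
    F (av ρ H v) = w := by
  classical
  have := Fintype.ofFinite H
  rw [av_apply, map_smul, map_sum, Finset.sum_congr rfl fun (x : H) _ => hw x x.2, Finset.sum_const,
    Finset.card_univ, ← Nat.card_eq_fintype_card, ← Nat.cast_smul_eq_nsmul ℂ, smul_smul,
    inv_mul_cancel₀ (card_ne H), one_smul]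

end S

section Main

variable {I W : Type*} {Y : Type u} [Fintype I] [DecidableEq I] [Group W] [Group Y] {M : CoxeterMatrix I}
  {cs : CoxeterSystem M W} {A : I → I → ℤ} {h : IsCartan M A} {p : ℕ} {T : Subgroup Y} {n : I → Y}
  {X : (I → ℤ) → Subgroup Y} (R : RGD cs h p T n X) [Finite Y]
  {V : Type v} [AddCommGroup V] [Module ℂ V] {ρ : Representation ℂ Y V}

include R

theorem X_le_normalizer_VJ (i : I) : X (sr i) ≤ Subgroup.normalizer (VJ cs h X {i} : Set Y) :=
  le_trans (X_le_LJ (PosJ_subset {i} (sr_mem_PosJ (Set.mem_singleton i)))) (LJ_le_normalizer_VJ R {i})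

theorem n_mem_normalizer_VJ (i : I) : n i ∈ Subgroup.normalizer (VJ cs h X {i} : Set Y) :=
  LJ_le_normalizer_VJ R {i} (n_mem_LJ R (Set.mem_singleton i))

/-- `B = T V_i X_i` -/
theorem mem_B_split (i : I) {b : Y} (hb : b ∈ RGD.B cs h T X) :
    ∃ t ∈ T, ∃ v ∈ VJ cs h X {i}, ∃ a ∈ X (sr i), b = t * v * a := by
  obtain ⟨t, ht, u, hu, rfl⟩ := R.mem_B.1 hb
  obtain ⟨a, ha, v, hv, rfl⟩ := (mem_U_iff R (J := {i})).1 hu
  have ha' : a ∈ X (sr i) := by
    have h1 : UJ cs h X {i} = X (sr i) := by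
      apply le_antisymm
      · refine RGD.Sup_le fun x hx => ?_
        rcases Cfsg.Agent.H866.D4Wf.eq_of_mem_RootsJ R (PosJ_subset {i} hx) with rfl | rfl
        · exact le_rfl
        · exact absurd (neg_nonneg.1 hx.2.1) fun h1 =>
            (isRoot_sr cs h i).not_pos_neg (sr_nonneg i) h1
      · exact RGD.le_Sup (S := PosJ cs h {i}) (sr_mem_PosJ (Set.mem_singleton i))
    rwa [h1] at ha
  refine ⟨t, ht, a * v * a⁻¹, ?_, a, ha', by group⟩
  exact (Subgroup.mem_normalizer_iff.1 (X_le_normalizer_VJ R i ha') v).1 hv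

theorem conj_n_mem_B (i : I) {t v : Y} (ht : t ∈ T) (hv : v ∈ VJ cs h X {i}) :
    n i * (t * v) * (n i)⁻¹ ∈ RGD.B cs h T X := by
  have h1 : n i * (t * v) * (n i)⁻¹ = (n i * t * (n i)⁻¹) * (n i * v * (n i)⁻¹) := by group
  rw [h1]
  refine mul_mem (RGD.T_le_B ?_) (VJ_le_B {i} ?_)
  · exact (Subgroup.mem_normalizer_iff.1 (rp_simple cs R.nsys i).mem_normalizer t).1 ht
  · exact (Subgroup.mem_normalizer_iff.1 (n_mem_normalizer_VJ R i) v).1 hv

/-- **multiplicativity** -/
theorem av_step {w : W} {i : I} (hw : cs.length w < cs.length (cs.simple i * w)) {k : Y}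
    (hk : Rp cs R.nsys w k) {f : V} (hf : f ∈ fx ρ (RGD.B cs h T X)) :
    av ρ (RGD.B cs h T X) (ρ (n i) (av ρ (RGD.B cs h T X) (ρ k f))) =
      av ρ (RGD.B cs h T X) (ρ (n i * k) f) := by
  refine av_const ρ (F := av ρ (RGD.B cs h T X) * ρ (n i)) (fun b hb => ?_)
  obtain ⟨t, ht, v, hv, a, ha, rfl⟩ := mem_B_split R i hb
  have hpos : 0 ≤ rep cs h w⁻¹ (sr i) := by
    refine (lt_iff' cs h w⁻¹ i).1 ?_
    have h1 : w⁻¹ * cs.simple i = (cs.simple i * w)⁻¹ := by
      rw [mul_inv_rev, cs.inv_simple]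
    rw [h1, cs.length_inv, cs.length_inv]
    exact hw
  have h1 : k⁻¹ * a * k ∈ RGD.B cs h T X :=
    RGD.U_le_B (RGD.le_Sup (S := RGD.Pos cs h) ⟨(isRoot_sr cs h i).act _, hpos⟩
      (R.conj_mem' hk (isRoot_sr cs h i) ha))
  have h2 : ρ (t * v * a) (ρ k f) = ρ (t * v) (ρ k f) := by
    have h3 : t * v * a * k = (t * v) * (k * (k⁻¹ * a * k)) := by group
    rw [← rmul, h3, rmul ρ (t * v), rmul ρ k, hf _ h1]
  rw [h2, Module.End.mul_apply]
  have h3 : ρ (n i) (ρ (t * v) (ρ k f)) = ρ (n i * (t * v) * (n i)⁻¹) (ρ (n i) (ρ k f)) := by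
    rw [← rmul, ← rmul, ← rmul, ← rmul]
    congr 2
    group
  rw [h3, av_rho ρ (conj_n_mem_B R i ht hv), rmul]

/-- the operator `e_B n_i` -/
noncomputable def XX (cs : CoxeterSystem M W) (h : IsCartan M A) (T : Subgroup Y) (n : I → Y)
    (X : (I → ℤ) → Subgroup Y) (ρ : Representation ℂ Y V) (i : I) :
    Module.End ℂ (fx ρ (RGD.B cs h T X)) :=
  (av ρ (RGD.B cs h T X) * ρ (n i)).restrict (fun v _ => av_mem ρ _ (ρ (n i) v))

omit R in
theorem XX_coe (i : I) (v : fx ρ (RGD.B cs h T X)) :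
    (XX cs h T n X ρ i v : V) = av ρ (RGD.B cs h T X) (ρ (n i) (v : V)) := rfl

theorem av_word {ω : List I} (hω : cs.IsReduced ω) : ∀ {k : Y}, Rp cs R.nsys (cs.wordProd ω) k →
    ∀ f : fx ρ (RGD.B cs h T X),
    av ρ (RGD.B cs h T X) (ρ k (f : V)) = ((ω.map (XX cs h T n X ρ)).prod f : V) := by
  induction ω with
  | nil =>
    intro k hk f
    rw [wordProd_nil] at hk
    rw [List.map_nil, List.prod_nil, Module.End.one_apply, f.2 k (RGD.T_le_B hk.mem_of_one), av_of_mem f.2]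
  | cons i ω ih =>
    intro k hk f
    have h1 : cs.IsReduced ω := by
      have := hω.drop 1
      simpa using this
    have h2 := hω.eq
    rw [wordProd_cons, List.length_cons] at h2
    rw [wordProd_cons] at hk
    have hk' : Rp cs R.nsys (cs.wordProd ω) ((n i)⁻¹ * k) := by
      have := (rp_simple cs R.nsys i).inv.mul hk
      rwa [inv_mul_cancel_left] at this
    rw [List.map_cons, List.prod_cons, Module.End.mul_apply, XX_coe, ← ih h1 hk' f,
      av_step R (by rw [h2, h1.eq]; omega) hk' f.2, mul_inv_cancel_left]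

end Main

end Cfsg.Agent.H695.OneZero.Det
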