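import Cfsg.Agent.H695.OneZero.KConst
import Cfsg.Agent.Characters.CCBasic
import Cfsg.Agent.Characters.SchurBound
import Cfsg.Agent.Characters.Brauer
import Cfsg.Agent.H395.Jordan

/-!
# Class functions without zeros on a group of rank one

`K = B ∪ B n0 B`, `B = U T`, `T` abelian.  Let `f` be a class function on `K` without zeros whose
irreducible constituents are all conjugate under automorphisms which fix `f`, normalize `U` and
centralize `T`.  Then `f` is constant on `U` or the sum of `f` over `U` is zero (`Rk1.main`).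
-/

set_option autoImplicit false

namespace Cfsg.Agent.H695.OneZero

open Cfsg Cfsg.Agent.Characters Finset
open scoped ComplexConjugate

universe u

/-- A group of rank one. -/
structure Rk1 {K : Type u} [Group K] (U T : Subgroup K) (n0 : K) : Prop where
  TU : ∀ t ∈ T, ∀ u ∈ U, t * u * t⁻¹ ∈ U
  comm : ∀ s ∈ T, ∀ t ∈ T, s * t = t * s
  bru : ∀ k, (∃ u ∈ U, ∃ t ∈ T, k = u * t) ∨ (∃ u ∈ U, ∃ t ∈ T, ∃ v ∈ U, k = u * t * n0 * v)
  disj : ∀ u ∈ U, ∀ v ∈ U, ∀ t ∈ T, n0⁻¹ * u * n0 = v * t → u = 1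
  n0T : ∀ t ∈ T, n0⁻¹ * t * n0 ∈ T
  UT : ∀ u ∈ U, u ∈ T → u = 1
  U1 : ∃ u ∈ U, u ≠ 1

namespace Rk1

variable {K : Type u} [Group K] {U T : Subgroup K} {n0 : K} (h : Rk1 U T n0)

include h in
theorem uniq {u u' t t' : K} (hu : u ∈ U) (ht : t ∈ T) (hu' : u' ∈ U) (ht' : t' ∈ T)
    (he : u * t = u' * t') : u = u' ∧ t = t' := by
  have h1 : u'⁻¹ * u = t' * t⁻¹ := by
    have h2 : u = u' * t' * t⁻¹ := by rw [← he, mul_inv_cancel_right]
    rw [h2]
    group
  have h2 : u'⁻¹ * u = 1 := h.UT _ (mul_mem (inv_mem hu') hu) (h1 ▸ mul_mem ht' (inv_mem ht))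
  have h3 : u = u' := (inv_mul_eq_one.1 h2).symm
  refine ⟨h3, ?_⟩
  rw [h3] at he
  exact mul_left_cancel he

/-- The subgroup `B = U T`. -/
def bor : Subgroup K where
  carrier := {k | ∃ u ∈ U, ∃ t ∈ T, k = u * t}
  one_mem' := ⟨1, one_mem _, 1, one_mem _, by rw [mul_one]⟩
  mul_mem' := by
    rintro _ _ ⟨u, hu, t, ht, rfl⟩ ⟨u', hu', t', ht', rfl⟩
    exact ⟨u * (t * u' * t⁻¹), mul_mem hu (h.TU t ht u' hu'), t * t', mul_mem ht ht', by group⟩
  inv_mem' := by
    rintro _ ⟨u, hu, t, ht, rfl⟩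
    refine ⟨t⁻¹ * u⁻¹ * t⁻¹⁻¹, h.TU _ (inv_mem ht) _ (inv_mem hu), t⁻¹, inv_mem ht, by group⟩

theorem mem_bor {k : K} : k ∈ h.bor ↔ ∃ u ∈ U, ∃ t ∈ T, k = u * t := Iff.rfl

theorem U_le : U ≤ h.bor := fun u hu => ⟨u, hu, 1, one_mem _, by rw [mul_one]⟩

theorem T_le : T ≤ h.bor := fun t ht => ⟨1, one_mem _, t, ht, by rw [one_mul]⟩

/-- The projection `B → T`. -/
noncomputable def pr (b : h.bor) : T :=
  ⟨b.2.choose_spec.2.choose, b.2.choose_spec.2.choose_spec.1⟩

theorem pr_eq {u t : K} (hu : u ∈ U) (ht : t ∈ T) (b : h.bor) (hb : (b : K) = u * t) :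
    h.pr b = ⟨t, ht⟩ := by
  have h1 := b.2.choose_spec.1
  have h2 := b.2.choose_spec.2.choose_spec.2
  exact Subtype.ext (h.uniq hu ht h1 b.2.choose_spec.2.choose_spec.1 (hb.symm.trans h2)).2.symm

/-- The projection `B → T` as a homomorphism. -/
noncomputable def prHom : h.bor →* T where
  toFun := h.pr
  map_one' := h.pr_eq (one_mem _) (one_mem _) 1 (by simp)
  map_mul' := fun a b => by
    obtain ⟨u, hu, t, ht, ha⟩ := h.mem_bor.1 a.2
    obtain ⟨u', hu', t', ht', hb⟩ := h.mem_bor.1 b.2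
    rw [h.pr_eq hu ht a ha, h.pr_eq hu' ht' b hb]
    exact h.pr_eq (u := u * (t * u' * t⁻¹)) (mul_mem hu (h.TU t ht u' hu')) (mul_mem ht ht') _
      (by
        rw [Subgroup.coe_mul, ha, hb]
        group)

theorem prHom_eq {u t : K} (hu : u ∈ U) (ht : t ∈ T) (b : h.bor) (hb : (b : K) = u * t) :
    h.prHom b = ⟨t, ht⟩ := h.pr_eq hu ht b hb

theorem prHom_surjective : Function.Surjective h.prHom := fun t =>
  ⟨⟨t, h.T_le t.2⟩, h.prHom_eq (one_mem _) t.2 _ (by rw [one_mul])⟩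

/-- `U × T ≃ B`. -/
noncomputable def eqv : U × T ≃ h.bor :=
  Equiv.ofBijective (fun x => ⟨(x.1 : K) * x.2, x.1, x.1.2, x.2, x.2.2, rfl⟩) (by
    constructor
    · rintro ⟨⟨u, hu⟩, ⟨t, ht⟩⟩ ⟨⟨u', hu'⟩, ⟨t', ht'⟩⟩ he
      obtain ⟨h1, h2⟩ := h.uniq hu ht hu' ht' (congrArg Subtype.val he)
      subst h1 h2
      rfl
    · rintro ⟨_, u, hu, t, ht, rfl⟩
      exact ⟨(⟨u, hu⟩, ⟨t, ht⟩), rfl⟩)

theorem eqv_coe (x : U × T) : (h.eqv x : K) = (x.1 : K) * x.2 := rfl

/-- `n0 ∉ B`, hence `B ≠ K`. -/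
theorem n0_notMem : n0 ∉ h.bor := by
  intro hn
  obtain ⟨u, hu, hu1⟩ := h.U1
  have h1 : n0⁻¹ * u * n0 ∈ h.bor := mul_mem (mul_mem (inv_mem hn) (h.U_le hu)) hn
  obtain ⟨v, hv, t, ht, he⟩ := h1
  exact hu1 (h.disj u hu v hv t ht he)

theorem bor_ne_top : h.bor ≠ ⊤ := fun he => h.n0_notMem (he ▸ Subgroup.mem_top _)

/-- `B ∩ n0 B n0⁻¹ = T`. -/
theorem mem_T_of {b : K} (hb : b ∈ h.bor) (hb' : n0⁻¹ * b * n0 ∈ h.bor) : b ∈ T := by
  obtain ⟨u, hu, t, ht, rfl⟩ := hb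
  have h1 : n0⁻¹ * u * n0 ∈ h.bor := by
    have h2 : n0⁻¹ * u * n0 = (n0⁻¹ * (u * t) * n0) * (n0⁻¹ * t * n0)⁻¹ := by group
    rw [h2]
    exact mul_mem hb' (inv_mem (h.T_le (h.n0T t ht)))
  obtain ⟨v, hv, s, hs, he⟩ := h1
  rw [h.disj u hu v hv s hs he, one_mul]
  exact ht

/-- Elements outside `B` are in `U n0 B`. -/
theorem exists_of_notMem {k : K} (hk : k ∉ h.bor) : ∃ u ∈ U, ∃ b ∈ h.bor, k = u * n0 * b := by
  rcases h.bru k with ⟨u, hu, t, ht, rfl⟩ | ⟨u, hu, t, ht, v, hv, rfl⟩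
  · exact absurd ⟨u, hu, t, ht, rfl⟩ hk
  · exact ⟨u, hu, (n0⁻¹ * t * n0) * v, mul_mem (h.T_le (h.n0T t ht)) (h.U_le hv), by group⟩

theorem card_bor : Nat.card h.bor = Nat.card U * Nat.card T := by
  rw [← Nat.card_congr h.eqv, Nat.card_prod]

variable [Fintype K]

open scoped Classical in
/-- The number of pairs `(x, b)` with `b, b^x ∈ B`. -/
theorem card_pairs [Fintype h.bor] :
    (univ.filter fun p : K × h.bor => p.1⁻¹ * (p.2 : K) * p.1 ∈ h.bor).card ≤
      2 * Nat.card h.bor ^ 2 := by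
  let F : (h.bor × h.bor) ⊕ (U × h.bor × T) → K × h.bor := fun s => match s with
    | Sum.inl x => (x.1, x.2)
    | Sum.inr x => ((x.1 : K) * n0 * x.2.1,
        ⟨(x.1 : K) * x.2.2 * (x.1 : K)⁻¹, mul_mem (mul_mem (h.U_le x.1.2) (h.T_le x.2.2.2))
          (inv_mem (h.U_le x.1.2))⟩)
  have h1 : (univ.filter fun p : K × h.bor => p.1⁻¹ * (p.2 : K) * p.1 ∈ h.bor) ⊆ univ.image F := by
    rintro ⟨x, b⟩ hp
    rw [mem_filter] at hp
    have hp2 : x⁻¹ * (b : K) * x ∈ h.bor := hp.2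
    rw [mem_image]
    by_cases hx : x ∈ h.bor
    · exact ⟨Sum.inl (⟨x, hx⟩, b), mem_univ _, rfl⟩
    · obtain ⟨u, hu, c, hc, rfl⟩ := h.exists_of_notMem hx
      have h2 : u⁻¹ * (b : K) * u ∈ T := by
        apply h.mem_T_of (mul_mem (mul_mem (inv_mem (h.U_le hu)) b.2) (h.U_le hu))
        have h3 : n0⁻¹ * (u⁻¹ * (b : K) * u) * n0 =
            c * ((u * n0 * c)⁻¹ * (b : K) * (u * n0 * c)) * c⁻¹ := by group
        rw [h3]
        exact mul_mem (mul_mem hc hp2) (inv_mem hc)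
      refine ⟨Sum.inr (⟨u, hu⟩, ⟨c, hc⟩, ⟨_, h2⟩), mem_univ _, ?_⟩
      refine Prod.ext rfl (Subtype.ext ?_)
      show u * (u⁻¹ * (b : K) * u) * u⁻¹ = b
      group
  refine (card_le_card h1).trans (card_image_le.trans ?_)
  rw [Finset.card_univ, Fintype.card_sum, Fintype.card_prod, Fintype.card_prod, Fintype.card_prod]
  have h2 : Fintype.card U * (Fintype.card h.bor * Fintype.card T) =
      Fintype.card h.bor * Fintype.card h.bor := by
    have h3 := h.card_bor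
    rw [Nat.card_eq_fintype_card, Nat.card_eq_fintype_card, Nat.card_eq_fintype_card] at h3
    calc Fintype.card U * (Fintype.card h.bor * Fintype.card T)
        = Fintype.card h.bor * (Fintype.card U * Fintype.card T) := by ring
      _ = _ := by rw [← h3]
  rw [h2, Nat.card_eq_fintype_card]
  exact le_of_eq (by ring)

open scoped Classical in
/-- The norm of the induced character. -/
theorem norm_ind_le [Fintype h.bor] (l : h.bor → ℂ) (hl : ∀ b, ‖l b‖ ≤ 1) :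
    ‖classInner (indFun h.bor l) (indFun h.bor l)‖ ≤ 2 := by
  have hB : (0 : ℝ) < Nat.card h.bor := by exact_mod_cast Nat.card_pos
  rw [Brauer.classInner_indFun h.bor inferInstance l _ (Brauer.indFun_isClassFunction _ _)]
  have h1 : ∀ b : h.bor, ‖indFun h.bor l (b : K)‖ ≤ (Nat.card h.bor : ℝ)⁻¹ *
      (univ.filter fun x : K => x⁻¹ * (b : K) * x ∈ h.bor).card := by
    intro b
    rw [Core.indFun_apply, norm_mul, norm_inv, Complex.norm_natCast]
    refine mul_le_mul_of_nonneg_left ?_ (inv_nonneg.2 hB.le)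
    refine (norm_sum_le _ _).trans ?_
    have h2 : ∀ x : K, ‖extendByZero h.bor l (x⁻¹ * (b : K) * x)‖ ≤
        if x⁻¹ * (b : K) * x ∈ h.bor then (1 : ℝ) else 0 := by
      intro x
      split_ifs with hx
      · rw [Core.extendByZero_of_mem _ _ hx]
        exact hl _
      · rw [Core.extendByZero_of_notMem _ _ hx, norm_zero]
    refine (Finset.sum_le_sum fun x _ => h2 x).trans ?_
    rw [← Finset.sum_filter, Finset.sum_const, nsmul_eq_mul, mul_one]
  unfold classInner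
  rw [norm_mul, norm_inv, Complex.norm_natCast]
  have h3 : ‖∑ b : h.bor, l b * conj (indFun h.bor l (b : K))‖ ≤
      (Nat.card h.bor : ℝ)⁻¹ * (2 * (Nat.card h.bor : ℝ) ^ 2) := by
    refine (norm_sum_le _ _).trans ?_
    have h4 : ∀ b : h.bor, ‖l b * conj (indFun h.bor l (b : K))‖ ≤ (Nat.card h.bor : ℝ)⁻¹ *
        (univ.filter fun x : K => x⁻¹ * (b : K) * x ∈ h.bor).card := by
      intro b
      rw [norm_mul, RCLike.norm_conj]
      calc ‖l b‖ * ‖indFun h.bor l (b : K)‖ ≤ 1 * ‖indFun h.bor l (b : K)‖ :=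
            mul_le_mul_of_nonneg_right (hl b) (norm_nonneg _)
        _ = ‖indFun h.bor l (b : K)‖ := one_mul _
        _ ≤ _ := h1 b
    refine (Finset.sum_le_sum fun b _ => h4 b).trans ?_
    rw [← Finset.mul_sum]
    refine mul_le_mul_of_nonneg_left ?_ (inv_nonneg.2 hB.le)
    have h5 : ∑ b : h.bor, (univ.filter fun x : K => x⁻¹ * (b : K) * x ∈ h.bor).card =
        (univ.filter fun p : K × h.bor => p.1⁻¹ * (p.2 : K) * p.1 ∈ h.bor).card := by
      rw [Finset.card_filter, ← Finset.univ_product_univ, Finset.sum_product_right]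
      exact Finset.sum_congr rfl fun b _ => Finset.card_filter _ _
    have h6 := h.card_pairs
    rw [← h5] at h6
    have h7 : ((∑ b : h.bor, (univ.filter fun x : K => x⁻¹ * (b : K) * x ∈ h.bor).card : ℕ) : ℝ) ≤
        ((2 * Nat.card h.bor ^ 2 : ℕ) : ℝ) := by exact_mod_cast h6
    push_cast at h7
    exact h7
  calc (Nat.card h.bor : ℝ)⁻¹ * ‖∑ b : h.bor, l b * conj (indFun h.bor l (b : K))‖
      ≤ (Nat.card h.bor : ℝ)⁻¹ * ((Nat.card h.bor : ℝ)⁻¹ * (2 * (Nat.card h.bor : ℝ) ^ 2)) :=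
        mul_le_mul_of_nonneg_left h3 (inv_nonneg.2 hB.le)
    _ = 2 := by field_simp

/-- The sum of a character over the cosets of `U` in `B` against a character of `T`. -/
theorem classInner_res [Fintype h.bor] [Fintype U] [Fintype T] (φ : K → ℂ) (μ : T → ℂ) :
    (Nat.card h.bor : ℂ) * classInner (fun b : h.bor => φ b) (μ ∘ h.prHom) =
      (Nat.card T : ℂ) * classInner (fun t : T => ∑ u : U, φ ((u : K) * t)) μ := by
  have hB : (Nat.card h.bor : ℂ) ≠ 0 := Core.card_ne_zero_complex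
  have hT : (Nat.card T : ℂ) ≠ 0 := Core.card_ne_zero_complex
  rw [Core.classInner_def, Core.classInner_def, ← mul_assoc, ← mul_assoc, mul_inv_cancel₀ hB,
    mul_inv_cancel₀ hT, one_mul, one_mul, ← Equiv.sum_comp h.eqv, Fintype.sum_prod_type_right]
  refine Finset.sum_congr rfl fun t _ => ?_
  rw [Finset.sum_mul]
  refine Finset.sum_congr rfl fun u _ => ?_
  rw [h.eqv_coe, Function.comp_apply, h.prHom_eq u.2 t.2 _ (h.eqv_coe _)]

include h in
/-- **The main theorem.** -/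
theorem main [Fintype U] (f : K → ℂ) (hf : IsClassFunction K f) (h0 : ∀ k, f k ≠ 0)
    (hconj : ∀ φ φ' : IrrCharacter K, classInner f φ.1 ≠ 0 → classInner f φ'.1 ≠ 0 →
      ∃ α : K ≃* K, (∀ u ∈ U, α u ∈ U) ∧ (∀ t ∈ T, α t = t) ∧ (∀ k, f (α k) = f k) ∧
        ∀ k, φ'.1 k = φ.1 (α k)) :
    (∀ u ∈ U, f u = f 1) ∨ ∑ u : U, f u = 0 := by
  classical
  by_cases hU : ∑ u : U, f u = 0
  · exact Or.inr hU
  left
  have hfin := Core.finite_irr (G := K)
  have : Fintype (IrrCharacter K) := Fintype.ofFinite _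
  have hftB : Fintype h.bor := Fintype.ofFinite _
  have hftT : Fintype T := Fintype.ofFinite _
  obtain ⟨Ω, hΩ⟩ : ∃ Ω : Finset (IrrCharacter K), ∀ φ, φ ∈ Ω ↔ classInner f φ.1 ≠ 0 :=
    ⟨univ.filter fun φ => classInner f φ.1 ≠ 0, fun φ => by simp⟩
  have hexp : ∀ k, f k = ∑ φ ∈ Ω, classInner f φ.1 * φ.1 k := by
    intro k
    have h1 : f k = ∑ φ : IrrCharacter K, classInner f φ.1 * φ.1 k := by
      have h1 := congrFun (Core.classFunction_eq_sum hf) k
      rw [Finset.sum_apply] at h1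
      exact h1
    refine h1.trans ?_
    symm
    apply Finset.sum_subset (Finset.subset_univ _)
    intro φ _ hφ
    rw [hΩ, not_not] at hφ
    rw [hφ, zero_mul]
  have hne : Ω.Nonempty := by
    by_contra hne
    rw [Finset.not_nonempty_iff_eq_empty] at hne
    apply h0 1
    rw [hexp 1, hne, Finset.sum_empty]
  obtain ⟨φ₀, hφ₀⟩ := hne
  obtain ⟨a, ha⟩ : ∃ a, a = classInner f φ₀.1 := ⟨_, rfl⟩
  have ha0 : a ≠ 0 := ha ▸ (hΩ φ₀).1 hφ₀
  have hca : ∀ φ ∈ Ω, classInner f φ.1 = a := by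
    intro φ hφ
    obtain ⟨α, -, -, h3, h4⟩ := hconj φ₀ φ ((hΩ φ₀).1 hφ₀) ((hΩ φ).1 hφ)
    have h5 := Clifford.classInner_comp_mulEquiv α f φ₀.1
    rw [ha, ← h5]
    congr 1
    · funext k
      exact (h3 k).symm
    · funext k
      exact h4 k
  have hexp' : ∀ k, f k = a * ∑ φ ∈ Ω, φ.1 k := by
    intro k
    rw [hexp k, Finset.mul_sum]
    exact Finset.sum_congr rfl fun φ hφ => by rw [hca φ hφ]
  have hsum : ∀ φ ∈ Ω, ∀ t ∈ T, ∑ u : U, φ.1 ((u : K) * t) = ∑ u : U, φ₀.1 ((u : K) * t) := by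
    intro φ hφ t ht
    obtain ⟨α, h1, h2, -, h4⟩ := hconj φ₀ φ ((hΩ φ₀).1 hφ₀) ((hΩ φ).1 hφ)
    let β : U → U := fun u => ⟨α u, h1 u u.2⟩
    have hβ : Function.Bijective β := by
      apply Finite.injective_iff_bijective.1
      intro u v huv
      exact Subtype.ext (α.injective (congrArg Subtype.val huv))
    rw [← Equiv.sum_comp (Equiv.ofBijective β hβ) fun u : U => φ₀.1 ((u : K) * t)]
    refine Finset.sum_congr rfl fun u _ => ?_
    rw [h4, map_mul, h2 t ht]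
    rfl
  have hφU : ∑ u : U, φ₀.1 (u : K) ≠ 0 := by
    intro hz
    apply hU
    rw [Finset.sum_congr rfl fun u _ => hexp' _, ← Finset.mul_sum, Finset.sum_comm]
    rw [Finset.sum_eq_zero, mul_zero]
    intro φ hφ
    have h1 := hsum φ hφ 1 (one_mem _)
    simp only [mul_one] at h1
    rw [h1, hz]
  -- a linear character of `T`
  obtain ⟨μ, hμ⟩ : ∃ μ : IrrCharacter T,
      classInner (fun t : T => ∑ u : U, φ₀.1 ((u : K) * t)) μ.1 ≠ 0 := by
    by_contra hne
    push Not at hne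
    have hfinT := Core.finite_irr (G := T)
    have : Fintype (IrrCharacter T) := Fintype.ofFinite _
    have hcl : IsClassFunction T (fun t : T => ∑ u : U, φ₀.1 ((u : K) * t)) := by
      intro s t
      have h1 : t * s * t⁻¹ = s := by
        apply Subtype.ext
        show (t : K) * s * (t : K)⁻¹ = s
        rw [h.comm t t.2 s s.2, mul_inv_cancel_right]
      simp only [h1]
    have h1 := congrFun (Core.classFunction_eq_sum hcl) 1
    rw [Finset.sum_apply] at h1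
    apply hφU
    simp only [Subgroup.coe_one, mul_one] at h1
    rw [h1]
    refine Finset.sum_eq_zero fun ν _ => ?_
    rw [Pi.smul_apply, hne ν, zero_smul]
  have hTc : ∀ s t : T, s * t = t * s := fun s t => Subtype.ext (h.comm s s.2 t t.2)
  have hμ1 : μ.1 1 = 1 := CCBasic.irr_apply_one_of_comm hTc μ.2
  have hl : IsIrrCharacter h.bor (μ.1 ∘ h.prHom) := Core.isIrr_comp h.prHom h.prHom_surjective μ.2
  have hB : (Nat.card h.bor : ℂ) ≠ 0 := Core.card_ne_zero_complex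
  have hTn : (Nat.card T : ℂ) ≠ 0 := Core.card_ne_zero_complex
  have hmul : ∀ φ ∈ Ω, ∃ n : ℕ, 1 ≤ n ∧ classInner (fun b : h.bor => φ.1 b) (μ.1 ∘ h.prHom) = n := by
    intro φ hφ
    obtain ⟨n, hn⟩ := Core.classInner_isNat (G := h.bor)
      (Core.isCharacter_comp h.bor.subtype (Core.isIrr_isCharacter φ.2)) (Core.isIrr_isCharacter hl)
    have hn' : classInner (fun b : h.bor => φ.1 b) (μ.1 ∘ h.prHom) = n := hn
    refine ⟨n, ?_, hn'⟩
    rcases Nat.eq_zero_or_pos n with rfl | hn0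
    · exfalso
      have h1 := h.classInner_res φ.1 μ.1
      rw [hn', Nat.cast_zero, mul_zero] at h1
      have h2 : (fun t : T => ∑ u : U, φ.1 ((u : K) * t)) =
          fun t : T => ∑ u : U, φ₀.1 ((u : K) * t) := by
        funext t
        exact hsum φ hφ t t.2
      rw [h2] at h1
      exact (mul_ne_zero hTn hμ) h1.symm
    · exact hn0
  by_cases hcard : Ω.card ≤ 1
  · -- one constituent
    have h1 : ∀ k, f k = a * φ₀.1 k := by
      intro k
      have h2 : Ω = {φ₀} := Finset.eq_singleton_iff_unique_mem.2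
        ⟨hφ₀, fun φ hφ => Finset.card_le_one.1 hcard φ hφ φ₀ hφ₀⟩
      rw [hexp' k, h2, Finset.sum_singleton]
    have h2 : ∀ k, φ₀.1 k ≠ 0 := fun k hk => h0 k (by rw [h1, hk, mul_zero])
    have h3 : φ₀.1 1 = 1 := by
      obtain ⟨d, hd0, hd⟩ := Core.isIrr_apply_one φ₀.2
      rcases Nat.eq_or_lt_of_le (Nat.one_le_iff_ne_zero.2 hd0.ne') with h4 | h4
      · rw [hd, ← h4, Nat.cast_one]
      · exfalso
        obtain ⟨n, ρ, hρ, he⟩ := φ₀.2
        obtain ⟨g, hg⟩ := Cfsg.Agent.S0191.result ρ (by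
          have h5 : ρ.character 1 = (Module.finrank ℂ (Fin n → ℂ) : ℂ) := ρ.char_one
          rw [he, hd] at h5
          have h6 : d = Module.finrank ℂ (Fin n → ℂ) := by exact_mod_cast h5
          omega)
        exact h2 g (by rw [← he]; exact hg)
    obtain ⟨g, hg⟩ := Linear.exists_hom_of_isIrrCharacter φ₀.2 h3
    intro u hu
    have h4 : φ₀.1 u = 1 := by
      have h5 : φ₀.1 u * ∑ v : U, φ₀.1 (v : K) = ∑ v : U, φ₀.1 (v : K) := by
        rw [Finset.mul_sum, ← Equiv.sum_comp (Equiv.mulLeft (⟨u, hu⟩ : U)) fun v : U => φ₀.1 (v : K)]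
        refine Finset.sum_congr rfl fun v _ => ?_
        rw [hg]
        simp
      exact mul_right_cancel₀ hφU (by rw [h5, one_mul])
    rw [h1, h1, h4, h3]
  · -- two constituents
    exfalso
    push Not at hcard
    have hS : ∀ k, (∑ φ ∈ Ω, φ.1) k = ∑ φ ∈ Ω, φ.1 k := fun k => Finset.sum_apply _ _ _
    set Θ := indFun h.bor (μ.1 ∘ h.prHom) with hΘ
    have hΘn := h.norm_ind_le (μ.1 ∘ h.prHom) (fun b => by
      have := SchurBound.norm_le (Core.isIrr_isCharacter μ.2) (n := 1) (by rw [hμ1, Nat.cast_one])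
        (h.prHom b)
      rwa [Nat.cast_one] at this)
    rw [← hΘ] at hΘn
    choose! n hn1 hn using hmul
    have hin : ∀ φ ∈ Ω, classInner Θ φ.1 = n φ := by
      intro φ hφ
      rw [hΘ, Brauer.classInner_indFun h.bor inferInstance _ _ (Core.isIrr_isClassFunction φ.2),
        ← Core.classInner_conj_symm]
      have h1 := hn φ hφ
      rw [h1]
      exact Complex.conj_natCast _
    have hin' : ∀ φ ∈ Ω, classInner φ.1 Θ = n φ := by
      intro φ hφ
      rw [← Core.classInner_conj_symm, hin φ hφ]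
      exact Complex.conj_natCast _
    have h1 : classInner Θ (∑ φ ∈ Ω, φ.1) = ((∑ φ ∈ Ω, n φ : ℕ) : ℂ) := by
      rw [Core.classInner_sum_right, Nat.cast_sum]
      exact Finset.sum_congr rfl hin
    have h2 : classInner (∑ φ ∈ Ω, φ.1) Θ = ((∑ φ ∈ Ω, n φ : ℕ) : ℂ) := by
      rw [Core.classInner_sum_left, Nat.cast_sum]
      exact Finset.sum_congr rfl hin'
    have h3 : classInner (∑ φ ∈ Ω, φ.1) (∑ φ ∈ Ω, φ.1) = (Ω.card : ℂ) := by
      rw [Core.classInner_sum_right]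
      have h4 : ∀ φ ∈ Ω, classInner (∑ φ ∈ Ω, φ.1) φ.1 = 1 := by
        intro φ hφ
        rw [Core.classInner_sum_left, Finset.sum_eq_single φ]
        · exact Core.classInner_irr_self φ.2
        · intro ψ _ hne
          exact Core.classInner_irr_ne ψ.2 φ.2 fun h => hne (Subtype.ext h)
        · intro h
          exact absurd hφ h
      rw [Finset.sum_congr rfl h4, Finset.sum_const, nsmul_eq_mul, mul_one]
    have h4 : classInner (Θ - ∑ φ ∈ Ω, φ.1) (Θ - ∑ φ ∈ Ω, φ.1) =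
        classInner Θ Θ - 2 * ((∑ φ ∈ Ω, n φ : ℕ) : ℂ) + Ω.card := by
      rw [Core.classInner_sub_left, Core.classInner_sub_right, Core.classInner_sub_right, h1, h2, h3]
      ring
    have h5 : Θ - ∑ φ ∈ Ω, φ.1 = 0 := by
      apply Core.classInner_self_eq_zero
      have h6 := Core.classInner_self_eq_ofReal (Θ - ∑ φ ∈ Ω, φ.1)
      have h7 := Core.classInner_self_eq_ofReal Θ
      rw [h6]
      have h8 : 0 ≤ (Nat.card K : ℝ)⁻¹ * ∑ g : K, Complex.normSq ((Θ - ∑ φ ∈ Ω, φ.1) g) :=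
        mul_nonneg (inv_nonneg.2 (Nat.cast_nonneg _)) (Finset.sum_nonneg fun _ _ => Complex.normSq_nonneg _)
      have h9 : 0 ≤ (Nat.card K : ℝ)⁻¹ * ∑ g : K, Complex.normSq (Θ g) :=
        mul_nonneg (inv_nonneg.2 (Nat.cast_nonneg _)) (Finset.sum_nonneg fun _ _ => Complex.normSq_nonneg _)
      rw [h7, Complex.norm_real, Real.norm_of_nonneg h9] at hΘn
      rw [h6, h7] at h4
      have h10 : (Nat.card K : ℝ)⁻¹ * ∑ g : K, Complex.normSq ((Θ - ∑ φ ∈ Ω, φ.1) g) =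
          (Nat.card K : ℝ)⁻¹ * ∑ g : K, Complex.normSq (Θ g) - 2 * ((∑ φ ∈ Ω, n φ : ℕ) : ℝ) + Ω.card := by
        exact_mod_cast h4
      have h11 : Ω.card ≤ ∑ φ ∈ Ω, n φ := by
        rw [Finset.card_eq_sum_ones]
        exact Finset.sum_le_sum hn1
      have h12 : (Ω.card : ℝ) ≤ ((∑ φ ∈ Ω, n φ : ℕ) : ℝ) := by exact_mod_cast h11
      have h13 : (2 : ℝ) ≤ (Ω.card : ℝ) := by exact_mod_cast hcard
      have h14 : (Nat.card K : ℝ)⁻¹ * ∑ g : K, Complex.normSq ((Θ - ∑ φ ∈ Ω, φ.1) g) = 0 :=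
        le_antisymm (by rw [h10]; linarith) h8
      rw [h14, Complex.ofReal_zero]
    obtain ⟨x, hx⟩ := Cfsg.Agent.H395.Jordan.exists_not_conj_mem h.bor_ne_top
    have h6 : Θ x = 0 := by
      rw [hΘ, Core.indFun_apply, Finset.sum_eq_zero, mul_zero]
      intro g _
      exact Core.extendByZero_of_notMem _ _ (hx g)
    have h7 := congrFun h5 x
    rw [Pi.sub_apply, Pi.zero_apply, h6, zero_sub, neg_eq_zero, hS] at h7
    exact h0 x (by rw [hexp', h7, mul_zero])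

end Rk1

end Cfsg.Agent.H695.OneZero
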