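import Mathlib

/-!
# An element of order `r` whose centralizer is a group of rank one times an abelian group

`RankOne p r q y R K U TK TC n0` : `R` is a cyclic Sylow `r`-subgroup of `G`, `y ∈ R` of order `r`,
`C_G(y) = C_G(R) = K TC`, where `K` is a group of rank one (`K = U TK ∪ U TK n0 U`).
`RankOneAt G p r q` : such a configuration exists.
-/

set_option autoImplicit false

namespace Cfsg.Agent.H695.OneZero

universe u

/-- The configuration. -/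
structure RankOne {G : Type u} [Group G] (p r q : ℕ) (y : G) (R K U TK TC : Subgroup G) (n0 : G) :
    Prop where
  ord : orderOf y = r
  mem : y ∈ R
  cyc : IsCyclic R
  pgr : IsPGroup r R
  ind : ¬ r ∣ R.index
  cent : ∀ g, Commute g y → ∀ x ∈ R, Commute g x
  ncj : ∃ m : ℕ, ¬ r ∣ m ∧ ¬ IsConj y (y ^ m)
  KC : ∀ k ∈ K, Commute k y
  Kr : ¬ r ∣ Nat.card K
  UK : U ≤ K
  TKK : TK ≤ K
  n0K : n0 ∈ K
  NK : ∀ n ∈ Subgroup.normalizer (R : Set G), ∃ c, Commute c y ∧ ∀ k ∈ K, n * k * n⁻¹ = c * k * c⁻¹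
  CK : ∀ c, Commute c y → ∃ k ∈ K, ∃ t ∈ TC, c = k * t
  Kn : ∀ t ∈ TC, ∀ k ∈ K, t * k * t⁻¹ ∈ K
  bru : ∀ k ∈ K, (∃ u ∈ U, ∃ t ∈ TK, k = u * t) ∨ (∃ u ∈ U, ∃ t ∈ TK, ∃ v ∈ U, k = u * t * n0 * v)
  TCy : ∀ t ∈ TC, Commute t y
  TCU : ∀ t ∈ TC, ∀ u ∈ U, t * u * t⁻¹ ∈ U
  TCT : ∀ t ∈ TC, ∀ s ∈ TK, Commute t s
  TKC : TK ≤ TC
  disj : ∀ u ∈ U, ∀ v ∈ U, ∀ t ∈ TK, n0⁻¹ * u * n0 = v * t → u = 1
  n0T : ∀ t ∈ TK, n0 * t * n0⁻¹ ∈ TK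
  cardU : Nat.card U = q
  pU : IsPGroup p U
  TCp : ¬ p ∣ Nat.card TC

/-- There is such a configuration. -/
def RankOneAt (G : Type u) [Group G] (p r q : ℕ) : Prop :=
  ∃ (y : G) (R K U TK TC : Subgroup G) (n0 : G), RankOne p r q y R K U TK TC n0

end Cfsg.Agent.H695.OneZero
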