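import Cfsg.Agent.H695.OneZero.RankOneChar

/-!
# The `p`-elements of a group of rank one

`K = B ∪ B n0 B`, `B = U T`, `U` a `p`-group, `T` of order prime to `p`: the `p`-elements different
from `1` are the `v n0 u n0⁻¹ v⁻¹` and the `u` with `u, v ∈ U`, `u ≠ 1` (`Rk1.sum_pel`).
-/

set_option autoImplicit false

namespace Cfsg.Agent.H695.OneZero

open Cfsg Finset

universe u

namespace Rk1

variable {K : Type u} [Group K] {U T : Subgroup K} {n0 : K} (h : Rk1 U T n0)

/-- The cosets of `B`. -/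
def cos : Option U → K ⧸ h.bor
  | none => ((1 : K) : K ⧸ h.bor)
  | some u => (((u : K) * n0 : K) : K ⧸ h.bor)

theorem cos_bijective : Function.Bijective h.cos := by
  constructor
  · rintro (_ | u) (_ | v) he
    · rfl
    · exfalso
      have h1 : (1 : K)⁻¹ * ((v : K) * n0) ∈ h.bor := QuotientGroup.eq.1 he
      apply h.n0_notMem
      have h2 : (v : K)⁻¹ * ((1 : K)⁻¹ * ((v : K) * n0)) = n0 := by group
      have h3 := mul_mem (inv_mem (h.U_le v.2)) h1
      rwa [h2] at h3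
    · exfalso
      have h1 : ((u : K) * n0)⁻¹ * 1 ∈ h.bor := QuotientGroup.eq.1 he
      apply h.n0_notMem
      have h2 : (u : K)⁻¹ * (((u : K) * n0)⁻¹ * 1)⁻¹ = n0 := by group
      have h3 := mul_mem (inv_mem (h.U_le u.2)) (inv_mem h1)
      rwa [h2] at h3
    · have h1 : ((u : K) * n0)⁻¹ * ((v : K) * n0) ∈ h.bor := QuotientGroup.eq.1 he
      have h2 : n0⁻¹ * ((u : K)⁻¹ * v) * n0 ∈ h.bor := by
        have h3 : n0⁻¹ * ((u : K)⁻¹ * v) * n0 = ((u : K) * n0)⁻¹ * ((v : K) * n0) := by group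
        rwa [h3]
      obtain ⟨a, ha, t, ht, he'⟩ := h2
      have h3 := h.disj _ (mul_mem (inv_mem u.2) v.2) a ha t ht he'
      have h4 : u = v := Subtype.ext (inv_mul_eq_one.1 h3)
      rw [h4]
  · intro x
    obtain ⟨k, rfl⟩ := QuotientGroup.mk_surjective x
    by_cases hk : k ∈ h.bor
    · refine ⟨none, ?_⟩
      show ((1 : K) : K ⧸ h.bor) = k
      rw [QuotientGroup.eq, inv_one, one_mul]
      exact hk
    · obtain ⟨u, hu, b, hb, rfl⟩ := h.exists_of_notMem hk
      refine ⟨some ⟨u, hu⟩, ?_⟩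
      show ((u * n0 : K) : K ⧸ h.bor) = ((u * n0 * b : K) : K ⧸ h.bor)
      rw [QuotientGroup.eq, inv_mul_cancel_left]
      exact hb

theorem card_quot [Finite K] : Nat.card (K ⧸ h.bor) = Nat.card U + 1 := by
  rw [← Nat.card_congr (Equiv.ofBijective _ h.cos_bijective), Finite.card_option]

include h in
theorem mem_U_of_bor [Finite K] {p : ℕ} (hp : p.Prime) (hT : ¬ p ∣ Nat.card T) {b : K} (hb : b ∈ h.bor) {k : ℕ}
    (hk : orderOf b = p ^ k) : b ∈ U := by
  have h1 : h.prHom ⟨b, hb⟩ = 1 := by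
    rw [← orderOf_eq_one_iff]
    have h2 : orderOf (h.prHom ⟨b, hb⟩) ∣ p ^ k := by
      refine (orderOf_map_dvd _ _).trans ?_
      rw [Subgroup.orderOf_mk, hk]
    have h3 : orderOf (h.prHom ⟨b, hb⟩) ∣ Nat.card T := orderOf_dvd_natCard _
    exact Nat.Coprime.eq_one_of_dvd (Nat.Coprime.coprime_dvd_left h2
      (Nat.Coprime.pow_left _ ((Nat.Prime.coprime_iff_not_dvd hp).2 hT))) h3
  obtain ⟨u, hu, t, ht, rfl⟩ := h.mem_bor.1 hb
  rw [h.prHom_eq hu ht _ rfl] at h1
  have h4 : t = 1 := congrArg Subtype.val h1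
  rw [h4, mul_one]
  exact hu

theorem conj_mem_U {b u : K} (hb : b ∈ h.bor) (hu : u ∈ U) : b * u * b⁻¹ ∈ U := by
  obtain ⟨v, hv, t, ht, rfl⟩ := h.mem_bor.1 hb
  have h1 : v * t * u * (v * t)⁻¹ = v * (t * u * t⁻¹) * v⁻¹ := by group
  rw [h1]
  exact mul_mem (mul_mem hv (h.TU t ht u hu)) (inv_mem hv)

include h in
/-- Every `p`-element is conjugate to an element of `U`. -/
theorem exists_conj_mem [Finite K] {p : ℕ} (hp : p.Prime) (hU : IsPGroup p U)
    (hT : ¬ p ∣ Nat.card T) {v : K} {k : ℕ} (hk : orderOf v = p ^ k) : ∃ x : K, x⁻¹ * v * x ∈ U := by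
  classical
  have : Fact p.Prime := ⟨hp⟩
  have : Fintype (K ⧸ h.bor) := Fintype.ofFinite _
  have hV : IsPGroup p (Subgroup.zpowers v) := IsPGroup.of_card (n := k) (by
    rw [Nat.card_zpowers, hk])
  have : Finite (MulAction.fixedPoints (Subgroup.zpowers v) (K ⧸ h.bor)) := inferInstance
  have h1 := hV.card_modEq_card_fixedPoints (K ⧸ h.bor)
  rw [h.card_quot] at h1
  obtain ⟨n, hn⟩ := (IsPGroup.iff_card).1 hU
  have hn0 : n ≠ 0 := by
    rintro rfl
    rw [pow_zero, Subgroup.card_eq_one] at hn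
    obtain ⟨u, hu, hu1⟩ := h.U1
    rw [hn, Subgroup.mem_bot] at hu
    exact hu1 hu
  have h2 : Nonempty (MulAction.fixedPoints (Subgroup.zpowers v) (K ⧸ h.bor)) := by
    by_contra hne
    rw [not_nonempty_iff] at hne
    rw [Nat.card_of_isEmpty (α := MulAction.fixedPoints (Subgroup.zpowers v) (K ⧸ h.bor)), hn] at h1
    have h3 : p ∣ p ^ n + 1 := (Nat.modEq_zero_iff_dvd).1 h1
    have h4 : p ∣ 1 := (Nat.dvd_add_right (dvd_pow_self p hn0)).1 h3
    exact hp.one_lt.ne' (Nat.dvd_one.1 h4)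
  obtain ⟨⟨x, hx⟩⟩ := h2
  obtain ⟨x, rfl⟩ := QuotientGroup.mk_surjective x
  have h3 := hx ⟨v, Subgroup.mem_zpowers v⟩
  have h4 : ((v * x : K) : K ⧸ h.bor) = (x : K ⧸ h.bor) := h3
  have h5 : x⁻¹ * v * x ∈ h.bor := by
    have h6 := QuotientGroup.eq.1 h4.symm
    rwa [← mul_assoc] at h6
  refine ⟨x, h.mem_U_of_bor hp hT h5 (k := k) ?_⟩
  rw [← hk]
  have h7 : x⁻¹ * v * x = x⁻¹ * v * x⁻¹⁻¹ := by rw [inv_inv]
  rw [h7]
  exact orderOf_injective (MulAut.conj x⁻¹).toMonoidHom (MulAut.conj x⁻¹).injective v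

/-- The `p`-elements. -/
noncomputable def mp (x : Option U × {u : U // u ≠ 1}) : K :=
  match x.1 with
  | none => (x.2.1 : K)
  | some v => (v : K) * n0 * x.2.1 * n0⁻¹ * (v : K)⁻¹

include h in
theorem mp_injective : Function.Injective (mp (U := U) (n0 := n0)) := by
  have key : ∀ u ∈ U, ∀ v ∈ U, n0 * u * n0⁻¹ = v → u = 1 := by
    intro u hu v hv he
    have h1 : n0⁻¹ * v * n0 = u * 1 := by rw [← he]; group
    have h2 := h.disj v hv u hu 1 (one_mem _) h1
    rw [h2] at he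
    have h3 : u = n0⁻¹ * (n0 * u * n0⁻¹) * n0 := by group
    rw [h3, he]
    group
  rintro ⟨_ | v, u, hu⟩ ⟨_ | w, u', hu'⟩ he
  · have he' : (u : K) = u' := he
    have : u = u' := Subtype.ext he'
    subst this
    rfl
  · exfalso
    have he' : (u : K) = (w : K) * n0 * u' * n0⁻¹ * (w : K)⁻¹ := he
    have h1 := key u' u'.2 ((w : K)⁻¹ * u * w) (mul_mem (mul_mem (inv_mem w.2) u.2) w.2) (by
      rw [he']
      group)
    exact hu' (Subtype.ext h1)
  · exfalso
    have he' : (v : K) * n0 * u * n0⁻¹ * (v : K)⁻¹ = u' := he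
    have h1 := key u u.2 ((v : K)⁻¹ * u' * v) (mul_mem (mul_mem (inv_mem v.2) u'.2) v.2) (by
      rw [← he']
      group)
    exact hu (Subtype.ext h1)
  · have he' : (v : K) * n0 * u * n0⁻¹ * (v : K)⁻¹ = (w : K) * n0 * u' * n0⁻¹ * (w : K)⁻¹ := he
    obtain ⟨x, hx⟩ : ∃ x : K, x = n0⁻¹ * ((w : K)⁻¹ * v) * n0 := ⟨_, rfl⟩
    have h1 : x * u * x⁻¹ = u' := by
      have h2 : x * u * x⁻¹ =
          n0⁻¹ * (w : K)⁻¹ * ((v : K) * n0 * u * n0⁻¹ * (v : K)⁻¹) * (w : K) * n0 := by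
        rw [hx]
        group
      rw [h2, he']
      group
    by_cases hxB : x ∈ h.bor
    · obtain ⟨a, ha, t, ht, hat⟩ := h.mem_bor.1 hxB
      have h2 := h.disj _ (mul_mem (inv_mem w.2) v.2) a ha t ht (by rw [← hat, hx])
      have h3 : w = v := Subtype.ext (inv_mul_eq_one.1 h2)
      subst h3
      rw [inv_mul_cancel, mul_one, inv_mul_cancel] at hx
      rw [hx, one_mul, inv_one, mul_one] at h1
      have h4 : u = u' := Subtype.ext h1
      subst h4
      rfl
    · exfalso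
      obtain ⟨a, ha, b, hb, hab⟩ := h.exists_of_notMem hxB
      have h2 := key (b * u * b⁻¹) (h.conj_mem_U hb u.2) (a⁻¹ * u' * a)
        (mul_mem (mul_mem (inv_mem ha) u'.2) ha) (by
          rw [← h1, hab]
          group)
      apply hu
      have h3 : (u : K) = b⁻¹ * (b * u * b⁻¹) * b := by group
      apply Subtype.ext
      rw [h3, h2]
      simp

include h in
/-- The `p`-elements different from `1`. -/
theorem exists_mp [Finite K] {p : ℕ} (hp : p.Prime) (hU : IsPGroup p U)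
    (hT : ¬ p ∣ Nat.card T) {v : K} {k : ℕ} (hk : orderOf v = p ^ k) (hv : v ≠ 1) :
    ∃ x, mp (U := U) (n0 := n0) x = v := by
  obtain ⟨x, hx⟩ := h.exists_conj_mem hp hU hT hk
  by_cases hxB : x ∈ h.bor
  · have h1 : v ∈ U := by
      have h2 := h.conj_mem_U hxB hx
      have h3 : x * (x⁻¹ * v * x) * x⁻¹ = v := by group
      rwa [h3] at h2
    exact ⟨(none, ⟨⟨v, h1⟩, fun h2 => hv (congrArg Subtype.val h2)⟩), rfl⟩
  · obtain ⟨a, ha, b, hb, rfl⟩ := h.exists_of_notMem hxB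
    have h1 := h.conj_mem_U hb hx
    refine ⟨(some ⟨a, ha⟩, ⟨⟨_, h1⟩, fun h2 => hv ?_⟩), ?_⟩
    · have h3 : b * ((a * n0 * b)⁻¹ * v * (a * n0 * b)) * b⁻¹ = 1 := congrArg Subtype.val h2
      have h4 : v = (a * n0) * (b * ((a * n0 * b)⁻¹ * v * (a * n0 * b)) * b⁻¹) * (a * n0)⁻¹ := by group
      rw [h4, h3]
      group
    · show a * n0 * (b * ((a * n0 * b)⁻¹ * v * (a * n0 * b)) * b⁻¹) * n0⁻¹ * a⁻¹ = v
      group

include h in
/-- **The sum of a class function over the `p`-elements.** -/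
theorem sum_pel [Fintype K] [Fintype U] {p : ℕ} (hp : p.Prime) (hU : IsPGroup p U)
    (hT : ¬ p ∣ Nat.card T) (f : K → ℂ) (hf : ∀ x v, f (x * v * x⁻¹) = f v)
    (S : Finset K) (hS : ∀ v, v ∈ S ↔ ∃ k, orderOf v = p ^ k) :
    ∑ v ∈ S, f v = (Nat.card U + 1) * ∑ u : U, f u - Nat.card U * f 1 := by
  classical
  have h1S : (1 : K) ∈ S := (hS 1).2 ⟨0, by simp⟩
  rw [← Finset.add_sum_erase S f h1S]
  have h1 : ∑ v ∈ S.erase 1, f v = ∑ x : Option U × {u : U // u ≠ 1}, f (x.2.1 : K) := by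
    symm
    have hmp : ∀ x : Option U × {u : U // u ≠ 1}, f (mp (n0 := n0) x) = f (x.2.1 : K) := by
      rintro ⟨_ | v, u⟩
      · rfl
      · show f ((v : K) * n0 * u.1 * n0⁻¹ * (v : K)⁻¹) = f u.1
        have h2 : (v : K) * n0 * u.1 * n0⁻¹ * (v : K)⁻¹ = ((v : K) * n0) * u.1 * ((v : K) * n0)⁻¹ := by
          group
        rw [h2, hf]
    rw [← Finset.sum_congr rfl fun x _ => hmp x]
    refine Finset.sum_bij (fun x _ => mp (n0 := n0) x) ?_ ?_ ?_ ?_
    · rintro ⟨o, u, hu⟩ _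
      obtain ⟨k, hk⟩ := hU u
      have hu2 : ∃ j, orderOf (u : K) = p ^ j := by
        have h3 : orderOf (u : K) ∣ p ^ k := orderOf_dvd_of_pow_eq_one (by
          have := congrArg Subtype.val hk
          simpa using this)
        obtain ⟨j, -, hj⟩ := (Nat.dvd_prime_pow hp).1 h3
        exact ⟨j, hj⟩
      rw [Finset.mem_erase, hS]
      rcases o with _ | v
      · exact ⟨fun h2 => hu (Subtype.ext h2), hu2⟩
      · have h2 : mp (n0 := n0) (some v, (⟨u, hu⟩ : {u : U // u ≠ 1})) =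
            ((v : K) * n0) * u * ((v : K) * n0)⁻¹ := by
          show (v : K) * n0 * u * n0⁻¹ * (v : K)⁻¹ = _
          group
        rw [h2]
        refine ⟨fun h3 => hu ?_, ?_⟩
        · apply Subtype.ext
          rw [mul_inv_eq_one] at h3
          have h4 := mul_left_cancel (h3.trans (mul_one _).symm)
          exact h4
        · obtain ⟨j, hj⟩ := hu2
          refine ⟨j, ?_⟩
          rw [← hj]
          exact orderOf_injective (MulAut.conj ((v : K) * n0)).toMonoidHom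
            (MulAut.conj ((v : K) * n0)).injective u
    · intro x _ y _ hxy
      exact h.mp_injective hxy
    · intro v hv
      rw [Finset.mem_erase, hS] at hv
      obtain ⟨k, hk⟩ := hv.2
      obtain ⟨x, hx⟩ := h.exists_mp hp hU hT hk hv.1
      exact ⟨x, Finset.mem_univ _, hx⟩
    · intro x _
      rfl
  have h2 : ∑ u : U, f u = f 1 + ∑ u : {u : U // u ≠ 1}, f (u.1 : K) := by
    rw [← Finset.add_sum_erase univ (fun u : U => f u) (Finset.mem_univ 1)]
    congr 1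
    rw [← Finset.sum_coe_sort (univ.erase (1 : U)) fun u : U => f u]
    refine Fintype.sum_equiv (Equiv.subtypeEquivRight fun u => by simp) _ _ fun u => rfl
  have h3 : ∑ x : Option U × {u : U // u ≠ 1}, f (x.2.1 : K) =
      (Nat.card U + 1) * ∑ u : {u : U // u ≠ 1}, f (u.1 : K) := by
    rw [Fintype.sum_prod_type]
    show ∑ _x : Option U, ∑ u : {u : U // u ≠ 1}, f (u.1 : K) = _
    rw [Finset.sum_const, Finset.card_univ, Fintype.card_option, Nat.card_eq_fintype_card,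
      nsmul_eq_mul]
    push_cast
    ring
  rw [h1, h3, h2]
  ring

end Rk1

end Cfsg.Agent.H695.OneZero
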